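import Cfsg.Agent.Lib.Chev.Extra
import Cfsg.Agent.Lib.Chev.FieldAut
import Cfsg.Agent.Lib.Chev.Data.G2

/-!
The subsystem subgroup of type A₂ (long roots) of G₂: the representation of `GL₃` on the adjoint module of G₂
as `sl₃ ⊕ V ⊕ V*` in the coordinates of the datum.
-/

set_option autoImplicit false

namespace Cfsg.Agent.Lib.G2

open Cfsg.Lie Cfsg.Agent.Lib.Chev
open scoped Kronecker Matrix

/-- coordinates of `gl₃ ⊕ V ⊕ V*` -/
abbrev J15 : Type := (Fin 3 × Fin 3) ⊕ (Fin 3 ⊕ Fin 3)

/-- the coordinate of a root -/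
def rootPos (r : ℕ) : J15 :=
  match r with
  | 6 => .inl (0, 1)
  | 10 => .inl (1, 2)
  | 11 => .inl (0, 2)
  | 5 => .inl (1, 0)
  | 1 => .inl (2, 1)
  | 0 => .inl (2, 0)
  | 8 => .inr (.inl 0)
  | 7 => .inr (.inl 1)
  | 2 => .inr (.inl 2)
  | 3 => .inr (.inr 0)
  | 4 => .inr (.inr 1)
  | _ => .inr (.inr 2)

/-- the weight of a root against the diagonal coordinates -/
def wt (r : ℕ) (i : Fin 3) : ℤ :=
  match rootPos r with
  | .inl (a, b) => (if a = i then 1 else 0) - (if b = i then 1 else 0)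
  | .inr (.inl a) => if a = i then 1 else 0
  | .inr (.inr a) => -(if a = i then 1 else 0)

/-- the embedding -/
def inclZ : Matrix J15 chevG2.Idx ℤ := fun a c =>
  match c with
  | .inl i => if i.val = 0 then
      (if a = .inl (0, 0) then -1 else if a = .inl (1, 1) then 2 else if a = .inl (2, 2) then -1 else 0)
    else (if a = .inl (0, 0) then 1 else if a = .inl (1, 1) then -1 else 0)
  | .inr s => if a = rootPos s.val then 1 else 0

/-- the coordinates of a traceless element -/
def projZ : Matrix chevG2.Idx J15 ℤ := fun c a =>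
  match c with
  | .inl i => if i.val = 0 then
      (if a = .inl (0, 0) then 1 else if a = .inl (1, 1) then 1 else 0)
    else (if a = .inl (0, 0) then 2 else if a = .inl (1, 1) then 1 else 0)
  | .inr s => if a = rootPos s.val then 1 else 0

/-- the trace row -/
def trRow : Matrix Unit J15 ℤ := fun _ a =>
  match a with
  | .inl (i, j) => if i = j then 1 else 0
  | .inr _ => 0

/-- the column of `E₃₃` -/
def e33 : Matrix J15 Unit ℤ := fun a _ => if a = .inl (2, 2) then 1 else 0

theorem proj_incl : projZ * inclZ = 1 := by decide +kernel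

theorem incl_proj : inclZ * projZ + e33 * trRow = 1 := by decide +kernel

theorem tr_incl : trRow * inclZ = 0 := by decide +kernel

section
variable {R : Type*} [CommRing R]

/-- the integer matrices over a ring -/
abbrev cz {m n : Type*} (M : Matrix m n ℤ) : Matrix m n R := M.map (Int.castRingHom R)

/-- the action of `(g, g⁻¹)` -/
def rep15 (g h : Matrix (Fin 3) (Fin 3) R) : Matrix J15 J15 R :=
  Matrix.fromBlocks (g ⊗ₖ hᵀ) 0 0 (Matrix.fromBlocks g 0 0 hᵀ)

theorem rep15_mul (g h g' h' : Matrix (Fin 3) (Fin 3) R) :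
    rep15 g h * rep15 g' h' = rep15 (g * g') (h' * h) := by
  simp only [rep15, Matrix.fromBlocks_multiply, Matrix.mul_zero, Matrix.zero_mul, add_zero, zero_add,
    Matrix.transpose_mul, ← Matrix.mul_kronecker_mul]

theorem rep15_one : rep15 (1 : Matrix (Fin 3) (Fin 3) R) 1 = 1 := by
  simp [rep15, Matrix.one_kronecker_one, Matrix.fromBlocks_one]

theorem tr_rep15 {g h : Matrix (Fin 3) (Fin 3) R} (e : h * g = 1) :
    cz (R := R) trRow * rep15 g h = cz (R := R) trRow := by
  ext u a
  rw [Matrix.mul_apply, Fintype.sum_sum_type, Fintype.sum_prod_type]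
  rcases a with ⟨a, b⟩ | a
  · have h1 : (h * g) b a = (if a = b then (1 : R) else 0) := by
      rw [e, Matrix.one_apply]; by_cases hab : a = b <;> simp [hab, Ne.symm]
    rw [Matrix.mul_apply] at h1
    simp only [rep15, Matrix.fromBlocks_apply₁₁, Matrix.fromBlocks_apply₂₁, Matrix.zero_apply,
      mul_zero, Finset.sum_const_zero, add_zero, Matrix.map_apply, trRow, Matrix.kroneckerMap_apply,
      Matrix.transpose_apply]
    rw [show (Int.castRingHom R) (if a = b then 1 else 0) = (h * g) b a by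
      rw [Matrix.mul_apply, h1]; split_ifs <;> simp, Matrix.mul_apply]
    refine Finset.sum_congr rfl fun i _ => ?_
    rw [Finset.sum_eq_single i]
    · simp [mul_comm]
    · intro j _ hj; simp [Ne.symm hj]
    · simp
  · simp [rep15, trRow]

/-- the representation -/
def phiMat (g h : Matrix (Fin 3) (Fin 3) R) : Matrix chevG2.Idx chevG2.Idx R :=
  cz (R := R) projZ * rep15 g h * cz (R := R) inclZ

theorem phiMat_mul {g h g' h' : Matrix (Fin 3) (Fin 3) R} (e : h' * g' = 1) :
    phiMat g h * phiMat g' h' = phiMat (g * g') (h' * h) := by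
  have h1 : (cz (R := R) inclZ : Matrix J15 chevG2.Idx R) * cz (R := R) projZ = 1 - cz (R := R) e33 * cz (R := R) trRow := by
    rw [eq_sub_iff_add_eq, ← Matrix.map_mul, ← Matrix.map_mul,
      ← Matrix.map_add _ (map_add _), incl_proj, Matrix.map_one _ (map_zero _) (map_one _)]
  have h2 : (cz (R := R) trRow : Matrix Unit J15 R) * cz (R := R) inclZ = 0 := by
    rw [← Matrix.map_mul, tr_incl, Matrix.map_zero _ (map_zero _)]
  have h3 : (cz (R := R) inclZ : Matrix J15 chevG2.Idx R) * (cz (R := R) projZ * (rep15 g' h' * cz (R := R) inclZ)) =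
      rep15 g' h' * cz (R := R) inclZ := by
    rw [← Matrix.mul_assoc, h1, Matrix.sub_mul, Matrix.one_mul, Matrix.mul_assoc (cz (R := R) e33),
      ← Matrix.mul_assoc (cz (R := R) trRow), tr_rep15 e, h2, Matrix.mul_zero, sub_zero]
  calc phiMat g h * phiMat g' h'
      = cz (R := R) projZ * (rep15 g h * (cz (R := R) inclZ * (cz (R := R) projZ * (rep15 g' h' * cz (R := R) inclZ)))) := by
        simp only [phiMat, Matrix.mul_assoc]
    _ = _ := by rw [h3, phiMat, ← rep15_mul]; simp only [Matrix.mul_assoc]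

theorem phiMat_one : phiMat (1 : Matrix (Fin 3) (Fin 3) R) 1 = 1 := by
  rw [phiMat, rep15_one, Matrix.mul_one, ← Matrix.map_mul, proj_incl,
    Matrix.map_one _ (map_zero _) (map_one _)]

end

section
variable (F : Type*) [Field F]

/-- The homomorphism from `GL₃`. -/
def phi : GL (Fin 3) F →* GL chevG2.Idx F :=
  MonoidHom.toHomUnits
    { toFun := fun g => phiMat (g : Matrix (Fin 3) (Fin 3) F) (g⁻¹ : GL (Fin 3) F).val
      map_one' := by rw [inv_one, Units.val_one, phiMat_one]
      map_mul' := fun g g' => by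
        rw [phiMat_mul (Units.inv_mul g'), Units.val_mul, mul_inv_rev, Units.val_mul] }

theorem val_phi (g : GL (Fin 3) F) :
    (phi F g : Matrix chevG2.Idx chevG2.Idx F) = phiMat (g : Matrix (Fin 3) (Fin 3) F) (g⁻¹ : GL (Fin 3) F).val :=
  rfl

/-- the row of the vector part -/
def vRow (i : Fin 3) : chevG2.Idx :=
  if i = 0 then .inr ⟨8, by decide +kernel⟩ else if i = 1 then .inr ⟨7, by decide +kernel⟩
    else .inr ⟨2, by decide +kernel⟩

theorem vRow_proj : ∀ i : Fin 3, ∀ a : J15, projZ (vRow i) a = (if a = .inr (.inl i) then 1 else 0) ∧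
    inclZ a (vRow i) = (if a = .inr (.inl i) then 1 else 0) := by
  decide +kernel

theorem phi_vRow (g : GL (Fin 3) F) (i j : Fin 3) :
    (phi F g : Matrix chevG2.Idx chevG2.Idx F) (vRow i) (vRow j) = (g : Matrix (Fin 3) (Fin 3) F) i j := by
  rw [val_phi, phiMat, Matrix.mul_apply, Finset.sum_eq_single (Sum.inr (Sum.inl j) : J15),
    Matrix.mul_apply, Finset.sum_eq_single (Sum.inr (Sum.inl i) : J15)]
  · simp [(vRow_proj i _).1, (vRow_proj j _).2, rep15]
  · intro a _ ha; simp [(vRow_proj i a).1, ha]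
  · simp
  · intro a _ ha; simp [(vRow_proj j a).2, ha]
  · simp

theorem phi_injective : Function.Injective (phi F) := fun g g' e => by
  refine Units.ext ?_
  funext i j
  rw [← phi_vRow F g i j, ← phi_vRow F g' i j, e]

theorem phi_map {K : Type*} [Field K] (f : F →+* K) (g : GL (Fin 3) F) :
    gmap chevG2 f (phi F g) = phi K (Matrix.GeneralLinearGroup.map f g) := by
  refine Units.ext ?_
  rw [val_gmap, val_phi, val_phi]
  have hc : ∀ {m n : Type} (M : Matrix m n ℤ), (cz M : Matrix m n F).map f = cz M := by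
    intro m n M; ext a b; simp
  have hg : ∀ x : GL (Fin 3) F, (x : Matrix (Fin 3) (Fin 3) F).map f =
      (Matrix.GeneralLinearGroup.map f x : GL (Fin 3) K).val := fun x => rfl
  rw [phiMat, phiMat, Matrix.map_mul, Matrix.map_mul, hc, hc, ← hg, ← map_inv, ← hg]
  congr 2
  simp only [rep15, Matrix.fromBlocks_map, Matrix.map_zero _ (map_zero f), Matrix.transpose_map]
  congr 1
  ext a b
  simp

end

/-! ### root elements and the torus -/

/-- the six long roots with their positions in `sl₃` -/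
def longRoots : List (ℕ × Fin 3 × Fin 3) :=
  [(6, 0, 1), (10, 1, 2), (11, 0, 2), (5, 1, 0), (1, 2, 1), (0, 2, 0)]

/-- linear part of a root element -/
def xLin (r : Fin chevG2.nroots) : Matrix chevG2.Idx chevG2.Idx ℤ := fun row col =>
  match col with
  | .inl i => (match row with
      | .inl _ => 0
      | .inr u => if u = r then -((chevG2.cartanSR.getD i.val #[]).getD r.val 0) else 0)
  | .inr s =>
    if s = r then 0
    else if s.val = chevG2.negIdx.getD r.val 0 then
      (match row with | .inl i => (chevG2.coroot.getD r.val #[]).getD i.val 0 | .inr _ => 0)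
    else (match row with
      | .inl _ => 0
      | .inr u => ((chevG2.chainCoeff r.val s.val u.val).map Prod.snd).sum)

/-- quadratic part of a root element -/
def xQuad (r : Fin chevG2.nroots) : Matrix chevG2.Idx chevG2.Idx ℤ := fun row col =>
  match col, row with
  | .inr s, .inr u =>
    if s ≠ r ∧ s.val = chevG2.negIdx.getD r.val 0 ∧ u ≠ s ∧ u = r then -1 else 0
  | _, _ => 0

/-- linear part of a transvection in the representation -/
def tLin (i j : Fin 3) : Matrix J15 J15 ℤ :=
  Matrix.fromBlocks (Matrix.single i j 1 ⊗ₖ (1 : Matrix (Fin 3) (Fin 3) ℤ) -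
      (1 : Matrix (Fin 3) (Fin 3) ℤ) ⊗ₖ (Matrix.single i j (1 : ℤ))ᵀ) 0 0
    (Matrix.fromBlocks (Matrix.single i j 1) 0 0 (-(Matrix.single i j (1 : ℤ))ᵀ))

/-- quadratic part of a transvection in the representation -/
def tQuad (i j : Fin 3) : Matrix J15 J15 ℤ :=
  Matrix.fromBlocks (-(Matrix.single i j (1 : ℤ) ⊗ₖ (Matrix.single i j (1 : ℤ))ᵀ)) 0 0 0

theorem long_tables : ∀ p ∈ longRoots, ∃ h : p.1 < chevG2.nroots,
    projZ * tLin p.2.1 p.2.2 * inclZ = xLin ⟨p.1, h⟩ ∧
    projZ * tQuad p.2.1 p.2.2 * inclZ = xQuad ⟨p.1, h⟩ ∧ p.2.1 ≠ p.2.2 ∧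
    ∀ s u : Fin chevG2.nroots, ∀ km ∈ chevG2.chainCoeff p.1 s.val u.val, km.1 = 1 := by
  decide +kernel

section
variable {F : Type*} [Field F]

theorem x_poly (r : Fin chevG2.nroots) (t : F)
    (h : ∀ s u : Fin chevG2.nroots, ∀ km ∈ chevG2.chainCoeff r.val s.val u.val, km.1 = 1)
    (hne : chevG2.negIdx.getD r.val 0 ≠ r.val) :
    chevG2.xMat F r t = 1 + t • cz (xLin r) + t ^ 2 • cz (xQuad r) := by
  ext row col
  rcases col with i | s
  · rcases row with i' | u
    · by_cases hii : i' = i <;> simp [ChevalleyDatum.xMat, xLin, xQuad, Matrix.one_apply, hii]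
    · by_cases hu : u = r <;> simp [ChevalleyDatum.xMat, xLin, xQuad, Matrix.one_apply, hu]
      ring
  · by_cases hsr : s = r
    · subst hsr
      rcases row with i' | u
      · simp [ChevalleyDatum.xMat, xLin, xQuad, Matrix.one_apply]
      · by_cases hu : u = s <;> simp [ChevalleyDatum.xMat, xLin, xQuad, Matrix.one_apply, hu]
    · by_cases hn : s.val = chevG2.negIdx.getD r.val 0
      · rcases row with i' | u
        · simp [ChevalleyDatum.xMat, xLin, xQuad, Matrix.one_apply, hsr, hn, mul_comm]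
        · by_cases hus : u = s
          · subst hus; simp [ChevalleyDatum.xMat, xLin, xQuad, Matrix.one_apply, hsr, hn]
          · by_cases hur : u = r
            · subst hur
              simp [ChevalleyDatum.xMat, xLin, xQuad, Matrix.one_apply, hsr, hn, hus, Ne.symm hus]
            · simp [ChevalleyDatum.xMat, xLin, xQuad, Matrix.one_apply, hsr, hn, hus, hur]
      · rw [Array.getD_eq_getD_getElem?] at hn
        rcases row with i' | u
        · simp [ChevalleyDatum.xMat, xLin, xQuad, Matrix.one_apply, hsr, hn]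
        · have key : ∀ l : List (ℕ × ℤ), (∀ km ∈ l, km.1 = 1) →
              (l.map fun km => ((km.2 : ℤ) : F) * t ^ km.1).sum = t * (((l.map Prod.snd).sum : ℤ) : F) := by
            intro l
            induction l with
            | nil => simp
            | cons a l ih =>
              intro hl
              simp only [List.map_cons, List.sum_cons, Int.cast_add, mul_add]
              rw [ih fun km hkm => hl km (by simp [hkm]), hl a (by simp)]
              ring
          simp [ChevalleyDatum.xMat, xLin, xQuad, Matrix.one_apply, hsr, hn, key _ (h s u)]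

theorem rep15_transvection (i j : Fin 3) (t : F) :
    rep15 (Matrix.transvection i j t) (Matrix.transvection i j (-t)) =
      1 + t • cz (tLin i j) + t ^ 2 • cz (tQuad i j) := by
  ext a b
  rcases a with ⟨a₁, a₂⟩ | a | a <;> rcases b with ⟨b₁, b₂⟩ | b | b <;>
    simp [rep15, tLin, tQuad, Matrix.transvection, Matrix.single_apply, Matrix.one_apply] <;>
    split_ifs <;> simp_all <;> ring

/-- the transvection as an element of `GL₃` -/
def tv {i j : Fin 3} (hij : i ≠ j) (t : F) : GL (Fin 3) F :=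
  ⟨Matrix.transvection i j t, Matrix.transvection i j (-t),
    by rw [Matrix.transvection_mul_transvection_same i j hij, add_neg_cancel, Matrix.transvection_zero],
    by rw [Matrix.transvection_mul_transvection_same i j hij, neg_add_cancel, Matrix.transvection_zero]⟩

theorem phi_tv (C : Checked chevG2 G2.fast) {p : ℕ × Fin 3 × Fin 3} (hp : p ∈ longRoots)
    (hij : p.2.1 ≠ p.2.2) (t : F) : phi F (tv hij t) = C.xg p.1 t := by
  obtain ⟨h, h1, h2, -, h3⟩ := long_tables p hp
  refine Units.ext ?_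
  rw [val_phi]
  show phiMat (Matrix.transvection p.2.1 p.2.2 t) (Matrix.transvection p.2.1 p.2.2 (-t)) = _
  rw [C.val_xg, x_eq_xMat h, x_poly ⟨p.1, h⟩ t h3 (by
    intro he
    have := C.root.neg_ne h
    exact this he), ← h1, ← h2, phiMat, rep15_transvection]
  simp only [cz, Matrix.map_mul]
  simp only [Matrix.mul_add, Matrix.add_mul, Matrix.mul_smul, Matrix.smul_mul, Matrix.mul_one]
  rw [← Matrix.map_mul, proj_incl, Matrix.map_one _ (map_zero _) (map_one _)]

theorem phi_mem_group (C : Checked chevG2 G2.fast) {i j : Fin 3} (hij : i ≠ j) (t : F) :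
    phi F (tv hij t) ∈ chevG2.group F := by
  have : ∀ i j : Fin 3, i ≠ j → ∃ r, (r, i, j) ∈ longRoots := by
    intro i j; fin_cases i <;> fin_cases j <;> simp [longRoots]
  obtain ⟨r, hr⟩ := this i j hij
  rw [phi_tv C hr hij]
  exact C.xg_mem_group (long_tables _ hr).1 t

/-- the character of a diagonal element -/
def dChr (d : Fin 3 → Fˣ) (v : ℕ) : F := ((∏ i, d i ^ wt v i : Fˣ) : F)

/-- a diagonal element of `GL₃` -/
def dGL (d : Fin 3 → Fˣ) : GL (Fin 3) F :=
  ⟨Matrix.diagonal fun i => (d i : F), Matrix.diagonal fun i => ((d i)⁻¹ : Fˣ).val,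
    by rw [Matrix.diagonal_mul_diagonal, ← Matrix.diagonal_one]; congr 1; funext i; simp,
    by rw [Matrix.diagonal_mul_diagonal, ← Matrix.diagonal_one]; congr 1; funext i; simp⟩

theorem phi_diag (d : Fin 3 → Fˣ) :
    (phi F (dGL d) : Matrix chevG2.Idx chevG2.Idx F) = dg chevG2 (dChr d) := by
  let D15 : J15 → F := Sum.elim (fun p => (d p.1 : F) * ((d p.2)⁻¹ : Fˣ).val)
    (Sum.elim (fun i => (d i : F)) fun i => ((d i)⁻¹ : Fˣ).val)
  have e : rep15 (dGL d : Matrix (Fin 3) (Fin 3) F) ((dGL d)⁻¹ : GL (Fin 3) F).val = Matrix.diagonal D15 := by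
    show rep15 (Matrix.diagonal _) (Matrix.diagonal _) = _
    rw [rep15, Matrix.diagonal_transpose, Matrix.diagonal_kronecker_diagonal, Matrix.fromBlocks_diagonal,
      Matrix.fromBlocks_diagonal]
  rw [val_phi, phiMat, e]
  let E : chevG2.Idx → F := Sum.elim (fun _ => (1 : F)) (fun v : Fin chevG2.nroots => dChr d v.val)
  have key : Matrix.diagonal D15 * cz (R := F) inclZ = (cz inclZ : Matrix J15 chevG2.Idx F) * Matrix.diagonal E := by
    ext a c
    rw [Matrix.diagonal_mul, Matrix.mul_diagonal]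
    simp only [cz, Matrix.map_apply]
    by_cases h0 : inclZ a c = 0
    · simp [h0]
    rw [mul_comm]
    congr 1
    rcases c with i | s
    · have hdiag : ∀ a : J15, ∀ i : Fin chevG2.rank, inclZ a (.inl i) ≠ 0 →
          a = .inl (0, 0) ∨ a = .inl (1, 1) ∨ a = .inl (2, 2) := by decide +kernel
      rcases hdiag a i h0 with rfl | rfl | rfl <;> simp [D15, E]
    · have ha : a = rootPos s.val := by
        by_contra h; simp [inclZ, h] at h0
      subst ha
      show D15 (rootPos s.val) = ((∏ i, d i ^ wt s.val i : Fˣ) : F)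
      unfold wt
      rcases hp : rootPos s.val with ⟨a, b⟩ | a | a
      · simp only [D15, Sum.elim_inl]
        rw [← Units.val_mul]
        congr 1
        simp only [Fin.prod_univ_three]
        fin_cases a <;> fin_cases b <;> simp <;> exact mul_comm _ _
      · simp only [D15, Sum.elim_inr, Sum.elim_inl]
        congr 1
        simp only [Fin.prod_univ_three]
        fin_cases a <;> simp
      · simp only [D15, Sum.elim_inr]
        congr 1
        simp only [Fin.prod_univ_three]
        fin_cases a <;> simp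
  rw [Matrix.mul_assoc, key, ← Matrix.mul_assoc, ← Matrix.map_mul, proj_incl,
    Matrix.map_one _ (map_zero _) (map_one _), Matrix.one_mul]
  rfl

theorem pair_wt : ∀ r < 12, ∀ v < 12, (pair chevG2 r v =
      wt v 0 * pair chevG2 r 8 + wt v 1 * pair chevG2 r 7 + wt v 2 * pair chevG2 r 2) ∧
    pair chevG2 r 8 + pair chevG2 r 7 + pair chevG2 r 2 = 0 ∧
    pair chevG2 6 v = wt v 0 - wt v 1 ∧ pair chevG2 10 v = wt v 1 - wt v 2 := by
  decide +kernel

/-- the diagonal subgroup is the image of the diagonal of `SL₃` -/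
theorem diag_iff (C : Checked chevG2 G2.fast) (g : GL chevG2.Idx F) :
    g ∈ chevG2.diagonalSubgroup F ↔ ∃ d : Fin 3 → Fˣ, d 0 * d 1 * d 2 = 1 ∧ phi F (dGL d) = g := by
  constructor
  · intro hg
    let S : Subgroup (GL chevG2.Idx F) :=
      { carrier := {g | ∃ d : Fin 3 → Fˣ, d 0 * d 1 * d 2 = 1 ∧ phi F (dGL d) = g}
        one_mem' := ⟨1, by simp, by
          rw [show dGL (1 : Fin 3 → Fˣ) = 1 from Units.ext (by simp [dGL]), map_one]⟩
        mul_mem' := by
          rintro x y ⟨d, hd, rfl⟩ ⟨d', hd', rfl⟩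
          refine ⟨d * d', ?_, ?_⟩
          · calc (d * d') 0 * (d * d') 1 * (d * d') 2 = (d 0 * d 1 * d 2) * (d' 0 * d' 1 * d' 2) := by
                  simp only [Pi.mul_apply]; ac_rfl
              _ = 1 := by rw [hd, hd', one_mul]
          · rw [← map_mul]; congr 1; exact Units.ext (by simp [dGL])
        inv_mem' := by
          rintro x ⟨d, hd, rfl⟩
          refine ⟨d⁻¹, ?_, ?_⟩
          · simp only [Pi.inv_apply]; rw [← mul_inv, ← mul_inv, hd, inv_one]
          · rw [← map_inv]; congr 1 }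
    refine C.diag_le (K := S) (fun r hr t ht => ?_) hg
    let m : Fin 3 → ℤ := ![pair chevG2 r 8, pair chevG2 r 7, pair chevG2 r 2]
    refine ⟨fun i => Units.mk0 t ht ^ m i, ?_, Units.ext ?_⟩
    · rw [← zpow_add, ← zpow_add]
      show Units.mk0 t ht ^ (pair chevG2 r 8 + pair chevG2 r 7 + pair chevG2 r 2) = 1
      rw [(pair_wt r hr r hr).2.1, zpow_zero]
    · rw [phi_diag, C.val_hg, C.hMat_eq hr ht]
      refine dg_congr fun v hv => ?_
      rw [dChr, (pair_wt r hr v hv).1, Fin.prod_univ_three, ← zpow_mul, ← zpow_mul, ← zpow_mul,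
        ← zpow_add, ← zpow_add, Units.val_zpow_eq_zpow_val, Units.val_mk0]
      congr 1
      simp [m]
      ring
  · rintro ⟨d, hd, rfl⟩
    have h6 : (6 : ℕ) < chevG2.nroots := by decide +kernel
    have h10 : (10 : ℕ) < chevG2.nroots := by decide +kernel
    have e : phi F (dGL d) = C.hg 6 (d 0 : F) * C.hg 10 ((d 0 * d 1 : Fˣ) : F) := by
      refine Units.ext ?_
      rw [phi_diag, Units.val_mul, C.val_hg, C.val_hg, C.hMat_eq h6 (d 0).ne_zero,
        C.hMat_eq h10 (d 0 * d 1).ne_zero, dg_mul]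
      refine dg_congr fun v hv => ?_
      rw [dChr, (pair_wt 0 (by omega) v hv).2.2.1, (pair_wt 0 (by omega) v hv).2.2.2, Fin.prod_univ_three,
        ← Units.val_zpow_eq_zpow_val, ← Units.val_zpow_eq_zpow_val, ← Units.val_mul,
        show d 2 = (d 0 * d 1)⁻¹ from eq_inv_of_mul_eq_one_right hd, inv_zpow', zpow_sub, zpow_sub,
        mul_zpow, mul_zpow, mul_zpow]
      simp only [zpow_neg]
      congr 1
      rw [← div_eq_mul_inv, ← div_eq_mul_inv]
      simp only [div_eq_mul_inv, mul_inv, mul_assoc]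
      rw [inv_mul_cancel_left]
    rw [e]
    exact mul_mem (C.hg_mem h6 (d 0).ne_zero) (C.hg_mem h10 (d 0 * d 1).ne_zero)

theorem phi_sl_mem_group (C : Checked chevG2 G2.fast) {g : GL (Fin 3) F}
    (hg : (g : Matrix (Fin 3) (Fin 3) F).det = 1) : phi F g ∈ chevG2.group F := by
  obtain ⟨L, L', D, hA⟩ := Matrix.Pivot.exists_list_transvec_mul_diagonal_mul_list_transvec
    (g : Matrix (Fin 3) (Fin 3) F)
  let tg : Matrix.TransvectionStruct (Fin 3) F → GL (Fin 3) F := fun t => tv t.hij t.c
  have hdet : D 0 * D 1 * D 2 = 1 := by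
    have h := congrArg Matrix.det hA
    rw [hg, Matrix.det_mul, Matrix.det_mul, Matrix.det_diagonal, Matrix.TransvectionStruct.det_toMatrix_prod,
      Matrix.TransvectionStruct.det_toMatrix_prod, one_mul, mul_one, Fin.prod_univ_three] at h
    exact h.symm
  have hD : ∀ i, D i ≠ 0 := by
    intro i; fin_cases i <;> intro h0 <;> simp_all
  let d : Fin 3 → Fˣ := fun i => Units.mk0 (D i) (hD i)
  have hprod : ∀ L : List (Matrix.TransvectionStruct (Fin 3) F),
      ((L.map tg).prod : GL (Fin 3) F).val = (L.map Matrix.TransvectionStruct.toMatrix).prod ∧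
      phi F (L.map tg).prod ∈ chevG2.group F := by
    intro L
    induction L with
    | nil => exact ⟨rfl, by simp [one_mem]⟩
    | cons a L ih =>
      rw [List.map_cons, List.map_cons, List.prod_cons, List.prod_cons, Units.val_mul, ih.1, map_mul]
      exact ⟨rfl, mul_mem (phi_mem_group C a.hij a.c) ih.2⟩
  have e : g = (L.map tg).prod * dGL d * (L'.map tg).prod := by
    refine Units.ext ?_
    rw [Units.val_mul, Units.val_mul, (hprod L).1, (hprod L').1]
    exact hA
  rw [e, map_mul, map_mul]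
  refine mul_mem (mul_mem (hprod L).2 (C.diag_le_group ((diag_iff C _).2 ⟨d, ?_, rfl⟩))) (hprod L').2
  exact Units.ext (by simpa [d] using hdet)

/-- The centraliser of a regular diagonal element is the diagonal subgroup. -/
theorem cent_regular {D : ChevalleyDatum} {T : Fast} (C : Checked D T) {g h : GL D.Idx F}
    (hg : g ∈ D.group F) (hh : h ∈ D.diagonalSubgroup F) {χ : ℕ → F} (hχ : IsChr D χ)
    (eh : (h : Matrix D.Idx D.Idx F) = dg D χ) (h1 : ∀ r < D.nroots, χ r ≠ 1)
    (hinj : ∀ r < D.nroots, ∀ s < D.nroots, χ r = χ s → r = s) (hc : h * g = g * h) :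
    g ∈ D.diagonalSubgroup F := by
  obtain ⟨b, hb, n, hn, u, hu, rfl⟩ := C.exists_bnu hg
  have hconjx : ∀ r < D.nroots, ∀ t : F, h * C.xg r t * h⁻¹ = C.xg r (χ r * t) := fun r hr t => by
    rw [mul_inv_eq_iff_eq_mul]
    exact Units.ext (by simp only [Units.val_mul, eh, Checked.val_xg]; exact C.dg_x hχ hr t)
  have hfixU : ∀ S : Set ℕ, ClosedSet D S → ∀ y ∈ grp D F S, h * y * h⁻¹ = y → y = 1 := by
    intro S hS y hy hfy
    obtain ⟨t, rfl⟩ := C.exists_ordered hS hy
    have hlt : ∀ r ∈ C.rootList S, r < D.nroots := fun r hr => (C.mem_rootList.1 hr).1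
    have hw : ∀ l : List ℕ, (∀ r ∈ l, r < D.nroots) →
        h * C.wg (l.map fun r => (r, t r)) * h⁻¹ = C.wg (l.map fun r => (r, χ r * t r)) := by
      intro l
      induction l with
      | nil => intro _; simp [C.wg_nil]
      | cons r l ih =>
        intro hl
        rw [List.map_cons, List.map_cons, C.wg_cons, C.wg_cons, ← hconjx r (hl r (by simp)),
          ← ih fun x hx => hl x (by simp [hx])]
        group
    rw [hw _ hlt] at hfy
    have hco := C.ordered_inj _ (C.rootList_sorted S) (fun r hr => hS.pos r (C.mem_rootList.1 hr).2)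
      (fun r => χ r * t r) t hfy
    have hz : ∀ r ∈ C.rootList S, t r = 0 := fun r hr => by
      have := hco r hr
      by_contra h0
      exact h1 r (hlt r hr) (mul_right_cancel₀ h0 (by rwa [one_mul]))
    refine List.prod_eq_one fun x hx => ?_
    obtain ⟨p, hp, rfl⟩ := List.mem_map.1 hx
    obtain ⟨r, hr, rfl⟩ := List.mem_map.1 hp
    rw [hz r hr, C.xg_zero]
  set k := h * n * h⁻¹ * n⁻¹ with hk
  have hkd : k ∈ D.diagonalSubgroup F := by
    have := mul_mem hh (C.mono_conj_diag hn _ (inv_mem hh))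
    convert this using 1
    rw [hk]; group
  have hu' : h * u * h⁻¹ ∈ grp D F (C.inv n) :=
    C.diag_normalizes (fun r hr => hr.1.1) hh hu
  have hb' : h * b * h⁻¹ * k ∈ D.borelSubgroup F :=
    mul_mem (mul_mem (mul_mem (Subgroup.mem_sup_right hh) hb) (inv_mem (Subgroup.mem_sup_right hh)))
      (Subgroup.mem_sup_right hkd)
  have e : (h * b * h⁻¹ * k) * n * (h * u * h⁻¹) = b * n * u := by
    calc (h * b * h⁻¹ * k) * n * (h * u * h⁻¹) = h * (b * n * u) * h⁻¹ := by rw [hk]; group
      _ = b * n * u := by rw [hc, mul_inv_cancel_right]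
  obtain ⟨hbb, huu⟩ := (C.bnu_unique hb' hb hn hn hu' hu e).2 rfl
  rw [hfixU _ (C.closedSet_inv hn) u hu huu, mul_one]
  obtain ⟨v, hv, d, hd, rfl⟩ := C.mem_borel.1 hb
  have hdh : h * d * h⁻¹ = d := by rw [C.diag_comm hh hd, mul_inv_cancel_right]
  have hvd : h * v * h⁻¹ * (d * k) = v * d := by
    calc h * v * h⁻¹ * (d * k) = h * v * h⁻¹ * (h * d * h⁻¹ * k) := by rw [hdh]
      _ = h * (v * d) * h⁻¹ * k := by group
      _ = v * d := hbb
  have hz : v⁻¹ * (h * v * h⁻¹) = d * (d * k)⁻¹ := by
    calc v⁻¹ * (h * v * h⁻¹) = v⁻¹ * (h * v * h⁻¹ * (d * k)) * (d * k)⁻¹ := by group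
      _ = d * (d * k)⁻¹ := by rw [hvd]; group
  have hz1 : v⁻¹ * (h * v * h⁻¹) = 1 :=
    C.eq_one_of_uni_mono (mul_mem (inv_mem hv) (C.diag_normalizes_pos hh hv))
      (hz ▸ C.diag_le_monomial (mul_mem hd (inv_mem (mul_mem hd hkd))))
  have hk1 : k = 1 := by
    rw [hz1] at hz
    have h3 := mul_inv_eq_one.1 hz.symm
    exact (mul_eq_left.1 h3.symm)
  have hv1 : v = 1 := by
    rw [posUnipotent_eq] at hv
    exact hfixU _ C.closedSet_pos v hv (inv_mul_eq_one.1 hz1).symm
  rw [hv1, one_mul]
  refine mul_mem hd (C.mem_diag_of_sg hn fun r hr => ?_)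
  obtain ⟨c, hc0, hcr⟩ := C.sg_conj hn hr
  have hs := C.sg_lt hn hr
  have hcomm : h * n = n * h := by
    rw [hk, mul_inv_eq_one, mul_inv_eq_iff_eq_mul] at hk1; exact hk1
  have h2 := hcr (χ r * 1)
  rw [← hconjx r hr, show n * (h * C.xg r 1 * h⁻¹) * n⁻¹ = h * (n * C.xg r 1 * n⁻¹) * h⁻¹ by
    calc n * (h * C.xg r 1 * h⁻¹) * n⁻¹ = (n * h) * C.xg r 1 * (n * h)⁻¹ := by group
      _ = (h * n) * C.xg r 1 * (h * n)⁻¹ := by rw [hcomm]
      _ = _ := by group, hcr, hconjx _ hs] at h2
  have h3 := C.xg_inj hs h2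
  exact hinj _ hs r hr (mul_right_cancel₀ hc0 (by simpa [mul_comm] using h3))

end

end Cfsg.Agent.Lib.G2
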